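import Mathlib
import Cfsg.Agent.H40.SLGen

set_option autoImplicit false

namespace Cfsg.Agent.H40

open Matrix Matrix.SpecialLinearGroup

variable {K : Type*} [Field K] {n : ℕ}

lemma fin_one_val (hn : 1 ≤ n) : ((1 : Fin (n+1)) : ℕ) = 1 := by
  rw [Fin.val_one']; exact Nat.mod_eq_of_lt (by omega)

/-- the cyclic monomial matrix, as described in the statements S2402/S2403. -/
def cycMat (K : Type*) [Field K] (n : ℕ) : Matrix (Fin (n+1)) (Fin (n+1)) K :=
  Matrix.of (fun i j => if j.val = i.val + 1 then 1 else if i.val = n ∧ j.val = 0 then (-1) ^ n else 0)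

/-- sign attached to row `i`. -/
def cycSign (K : Type*) [Field K] (n : ℕ) (i : Fin (n+1)) : K := if i.val = n then (-1)^n else 1

lemma cycSign_sq (i : Fin (n+1)) : cycSign K n i * cycSign K n i = 1 := by
  unfold cycSign
  split_ifs
  · rw [← mul_pow]; simp
  · simp

lemma fin_succ_val_of_lt {i : Fin (n+1)} (h : i.val < n) : (i + 1).val = i.val + 1 := by
  rw [Fin.val_add, fin_one_val (by omega)]
  exact Nat.mod_eq_of_lt (by omega)

lemma fin_last_succ (i : Fin (n+1)) (h : i.val = n) : i + 1 = 0 := by
  have : i = Fin.last n := by ext; simpa using h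
  rw [this]; simp

lemma cycMat_apply (hn : 1 ≤ n) (i j : Fin (n+1)) : cycMat K n i j = if j = i + 1 then cycSign K n i else 0 := by
  unfold cycMat cycSign
  simp only [Matrix.of_apply]
  rcases Nat.lt_or_ge i.val n with h | h
  · have h1 := fin_succ_val_of_lt h
    have h2 : i.val ≠ n := by omega
    by_cases hj : j = i + 1
    · subst hj; simp [h1, h2]
    · have : j.val ≠ i.val + 1 := by
        intro hh; apply hj; ext; rw [hh, h1]
      simp [hj, this, h2]
  · have h2 : i.val = n := by have := i.2; omega
    have h1 := fin_last_succ i h2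
    have h3 : j.val ≠ n + 1 := by have := j.2; omega
    rw [h1]
    by_cases hj : j = 0
    · subst hj; simp [h2]
    · have : j.val ≠ 0 := by
        intro hh; apply hj; ext; simpa using hh
      simp [hj, this, h2, h3]

/-- `w T_{i+1,j+1}(t) = T_{i,j}(ε t) w`. -/
lemma cycMat_mul_transvection (hn : 1 ≤ n) (i j : Fin (n+1)) (t : K) :
    cycMat K n * Matrix.transvection (i+1) (j+1) t =
      Matrix.transvection i j (cycSign K n i * cycSign K n j * t) * cycMat K n := by
  ext a b
  rw [Matrix.transvection, Matrix.transvection, Matrix.mul_add, Matrix.add_mul, Matrix.mul_one, Matrix.one_mul,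
    Matrix.add_apply, Matrix.add_apply]
  congr 1
  by_cases ha : a = i
  · subst ha
    by_cases hb : b = j + 1
    · subst hb
      rw [Matrix.mul_single_apply_same, Matrix.single_mul_apply_same, cycMat_apply hn, cycMat_apply hn]
      simp only [if_true]
      linear_combination (-cycSign K n a * t) * cycSign_sq (K := K) j
    · rw [Matrix.mul_single_apply_of_ne _ _ _ _ _ hb, Matrix.single_mul_apply_same, cycMat_apply hn]
      simp [hb]
  · rw [Matrix.single_mul_apply_of_ne _ _ _ _ _ ha]
    by_cases hb : b = j + 1
    · subst hb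
      rw [Matrix.mul_single_apply_same, cycMat_apply hn]
      have : ¬ (i + 1 = a + 1) := by
        intro hh; exact ha (add_right_cancel hh).symm
      simp [this]
    · rw [Matrix.mul_single_apply_of_ne _ _ _ _ _ hb]

/-- subgroup containing `w` and all `T_{0,1}(t)` is everything. -/
theorem cyc_generate (hn : 1 ≤ n) (w : SpecialLinearGroup (Fin (n+1)) K)
    (hw : (w : Matrix (Fin (n+1)) (Fin (n+1)) K) = cycMat K n)
    (H : Subgroup (SpecialLinearGroup (Fin (n+1)) K)) (hwH : w ∈ H)
    (h01 : ∀ (hij : (0 : Fin (n+1)) ≠ 1) (t : K), SpecialLinearGroup.transvection hij t ∈ H) : H = ⊤ := by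
  apply sl_eq_top_of_cyclic hn
  have key : ∀ (k : ℕ) (i j : Fin (n+1)) (hij : i ≠ j) (_ : i.val = k) (_ : j = i + 1) (t : K),
      SpecialLinearGroup.transvection hij t ∈ H := by
    intro k
    induction k with
    | zero =>
      intro i j hij hi hj t
      have : i = 0 := by ext; simpa using hi
      subst this
      rw [zero_add] at hj
      subst hj
      exact h01 hij t
    | succ k ih =>
      intro i j hij hi hj t
      have hi1 : (i - 1).val = k := by
        rw [Fin.val_sub_one_of_ne_zero (by intro h; rw [h] at hi; simp at hi), hi]; simp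
      have hne : i - 1 ≠ j - 1 := by
        intro hh; exact hij (sub_left_injective hh)
      have h1 := ih (i - 1) (j - 1) hne hi1 (by rw [hj]; abel)
        (cycSign K n (i-1) * cycSign K n (j-1) * t)
      have e : SpecialLinearGroup.transvection hij t = w⁻¹ *
          SpecialLinearGroup.transvection hne (cycSign K n (i-1) * cycSign K n (j-1) * t) * w := by
        rw [mul_assoc, eq_inv_mul_iff_mul_eq]
        refine Subtype.ext ?_
        change (w : Matrix _ _ K) * Matrix.transvection i j t = Matrix.transvection (i-1) (j-1) _ * (w : Matrix _ _ K)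
        rw [hw]
        have := cycMat_mul_transvection (K := K) hn (i-1) (j-1) t
        rw [sub_add_cancel, sub_add_cancel] at this
        exact this
      rw [e]
      exact H.mul_mem (H.mul_mem (H.inv_mem hwH) h1) hwH
  intro i j hij hj t
  exact key i.val i j hij rfl hj t

/-- the additive subgroup of parameters of a transvection subgroup contained in `H`. -/
def transAdd {ι : Type*} [Fintype ι] [DecidableEq ι] {i j : ι} (hij : i ≠ j)
    (H : Subgroup (SpecialLinearGroup ι K)) : AddSubgroup K where
  carrier := {t | SpecialLinearGroup.transvection hij t ∈ H}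
  zero_mem' := by
    simp only [Set.mem_setOf_eq, Matrix.SpecialLinearGroup.transvection_coeff_zero]
    exact Subgroup.one_mem _
  add_mem' := by
    intro a b ha hb
    simp only [Set.mem_setOf_eq] at ha hb ⊢
    rw [Matrix.SpecialLinearGroup.transvection_add]
    exact Subgroup.mul_mem _ ha hb
  neg_mem' := by
    intro a ha
    simp only [Set.mem_setOf_eq] at ha ⊢
    rw [← Matrix.SpecialLinearGroup.transvection_inv]
    exact Subgroup.inv_mem _ ha

lemma mem_transAdd {ι : Type*} [Fintype ι] [DecidableEq ι] {i j : ι} (hij : i ≠ j)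
    (H : Subgroup (SpecialLinearGroup ι K)) (t : K) :
    t ∈ transAdd hij H ↔ SpecialLinearGroup.transvection hij t ∈ H := Iff.rfl

/-- In a finite field every element is a sum of two squares. -/
lemma exists_sq_add_sq [Fintype K] (t : K) : ∃ a b : K, t = a ^ 2 + b ^ 2 := by
  by_cases h : ringChar K = 2
  · obtain ⟨a, ha⟩ := FiniteField.isSquare_of_char_two h t
    exact ⟨a, 0, by rw [ha]; ring⟩
  · have h2 := FiniteField.odd_card_of_char_ne_two h
    obtain ⟨a, b, hab⟩ := FiniteField.exists_root_sum_quadratic (f := (Polynomial.X : Polynomial K) ^ 2)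
      (g := (Polynomial.X : Polynomial K) ^ 2 - Polynomial.C t) (by simp)
      (by rw [Polynomial.degree_sub_eq_left_of_degree_lt] <;> simp
          exact lt_of_le_of_lt Polynomial.degree_C_le (by norm_num)) h2
    refine ⟨a, b, ?_⟩
    simp only [Polynomial.eval_pow, Polynomial.eval_X, Polynomial.eval_sub, Polynomial.eval_C] at hab
    linear_combination (-1 : K) * hab

lemma addSubgroup_eq_top_of_sq [Fintype K] (A : AddSubgroup K) (c : K) (hc : c ≠ 0)
    (h : ∀ s : K, c * s ^ 2 ∈ A) : A = ⊤ := by
  rw [eq_top_iff]
  intro t _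
  obtain ⟨a, b, hab⟩ := exists_sq_add_sq (t / c)
  have : t = c * a ^ 2 + c * b ^ 2 := by
    rw [← mul_add, ← hab]; field_simp
  rw [this]
  exact A.add_mem (h a) (h b)

lemma diagonal_mul_transvection {ι : Type*} [Fintype ι] [DecidableEq ι] {i j : ι} (d : ι → K)
    (hd : d j ≠ 0) (t : K) :
    Matrix.diagonal d * Matrix.transvection i j t =
      Matrix.transvection i j (d i * t * (d j)⁻¹) * Matrix.diagonal d := by
  rw [Matrix.transvection, Matrix.transvection, Matrix.mul_add, Matrix.add_mul, Matrix.mul_one, Matrix.one_mul]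
  congr 1
  ext a b
  rw [Matrix.diagonal_mul, Matrix.mul_diagonal]
  simp only [Matrix.single_apply]
  split_ifs with h
  · obtain ⟨rfl, rfl⟩ := h
    field_simp
  · ring

end Cfsg.Agent.H40
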