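import Cfsg.Agent.H40.EvenR

/-!
# Automorphisms of `SL(2, 2 ^ n)` centralizing a Sylow 2-subgroup
-/

set_option autoImplicit false

namespace Cfsg.Agent.H40.EvenL

open Subgroup

section
variable {Q : Type*} [Group Q] [Finite Q]

/-- Sylow data of a group with a normal subgroup `SL(2, 2 ^ n)` of odd index -/
theorem data_of (h : AbC Q) (L : Subgroup Q) [L.Normal] (hi : Odd L.index) {F : Type*} [Field F] [Fintype F]
    [CharP F 2] {n : ℕ} (hn : 2 ≤ n) (hc : Fintype.card F = 2 ^ n) (e : L ≃* Matrix.SpecialLinearGroup (Fin 2) F) :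
    (∀ P : Sylow 2 Q, Nat.card P = 2 ^ n) ∧ (∀ P : Sylow 2 Q, ∀ x ∈ P, x * x = 1) ∧
      Nat.card (Sylow 2 Q) = 2 ^ n + 1 := by
  classical
  have hf2 := Fact.mk Nat.prime_two
  set q := 2 ^ n with hqdef
  have hq4 : 4 ≤ q := by
    calc 4 = 2 ^ 2 := by norm_num
      _ ≤ 2 ^ n := Nat.pow_le_pow_right (by norm_num) hn
  have hqe : Even q := by
    rw [hqdef, Nat.even_pow]
    exact ⟨even_two, by omega⟩
  -- order of `Q`
  have hcL : Nat.card L = (q + 1) * (q * (q - 1)) := by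
    rw [Nat.card_congr e.toEquiv, H34.card_sl2, Nat.card_eq_fintype_card, hc]
  have hcQ : Nat.card Q = 2 ^ n * ((q + 1) * (q - 1) * L.index) := by
    rw [← L.card_mul_index, hcL, ← hqdef]
    ring
  have hodd : Odd ((q + 1) * (q - 1) * L.index) := by
    refine Odd.mul (Odd.mul ?_ ?_) hi
    · exact Even.add_one hqe
    · exact Nat.Even.sub_odd (by omega) hqe odd_one
  have hP : ∀ P : Sylow 2 Q, Nat.card P = q := by
    intro P
    apply Nat.dvd_antisymm
    · obtain ⟨k, hk⟩ := IsPGroup.iff_card.1 P.isPGroup'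
      have h1 : Nat.card P ∣ 2 ^ n * ((q + 1) * (q - 1) * L.index) := by
        rw [← hcQ]
        exact card_subgroup_dvd_card _
      rw [hk] at h1 ⊢
      exact (Nat.Coprime.pow_left k (Nat.coprime_two_left.2 hodd)).dvd_of_dvd_mul_right h1
    · exact P.pow_dvd_card_of_pow_dvd_card (by rw [hcQ]; exact dvd_mul_right _ _)
  -- squares
  have hsqe : ∀ (k : ℕ) (x : Q), x ^ (2 ^ k) = 1 → x * x = 1 := by
    intro k x hx
    have hxL : x ∈ L := mem_of_two_elt hi hx
    have h1 : e ⟨x, hxL⟩ ^ (2 ^ k) = 1 := by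
      rw [← map_pow]
      have : (⟨x, hxL⟩ : L) ^ (2 ^ k) = 1 := Subtype.ext hx
      rw [this, map_one]
    have h2 := two_elt k _ h1
    rw [← map_mul, ← map_one e] at h2
    exact congrArg Subtype.val (e.injective h2)
  have hsq : ∀ P : Sylow 2 Q, ∀ x ∈ P, x * x = 1 := by
    intro P x hx
    obtain ⟨k, hk⟩ := P.isPGroup' ⟨x, hx⟩
    exact hsqe k x (congrArg Subtype.val hk)
  -- involutions
  have hI : Nat.card {x : Q // x ≠ 1 ∧ x * x = 1} + 1 = q ^ 2 := by
    have e1 : {x : Q // x ≠ 1 ∧ x * x = 1} ≃ {x : Matrix.SpecialLinearGroup (Fin 2) F // x ≠ 1 ∧ x * x = 1} :=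
      { toFun := fun x => ⟨e ⟨x.1, mem_of_two_elt hi (k := 1) (by rw [pow_one, pow_two, x.2.2])⟩, by
          intro h0
          rw [← map_one e] at h0
          exact x.2.1 (congrArg Subtype.val (e.injective h0)), by
          rw [← map_mul, ← map_one e]
          exact congrArg e (Subtype.ext x.2.2)⟩
        invFun := fun y => ⟨(e.symm y.1 : L), by
          intro h0
          have h1 : e.symm y.1 = 1 := Subtype.ext h0
          rw [← map_one e.symm] at h1
          exact y.2.1 (e.symm.injective h1), by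
          have h1 : e.symm y.1 * e.symm y.1 = 1 := by rw [← map_mul, y.2.2, map_one]
          exact congrArg Subtype.val h1⟩
        left_inv := by
          rintro ⟨x, hx⟩
          apply Subtype.ext
          simp
        right_inv := by
          rintro ⟨y, hy⟩
          apply Subtype.ext
          simp }
    rw [Nat.card_congr e1, card_sl2_inv F, hc]
  refine ⟨hP, hsq, ?_⟩
  have h1 := h.card_inv hP hsq
  rw [h1] at hI
  obtain ⟨r, hr⟩ : ∃ r, q = r + 2 := ⟨q - 2, by omega⟩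
  have h2 : q - 1 = r + 1 := by omega
  rw [h2, hr] at hI
  have h3 : (Nat.card (Sylow 2 Q)) * (r + 1) = (r + 3) * (r + 1) := by nlinarith
  have h4 := Nat.eq_of_mul_eq_mul_right (by omega) h3
  omega

/-- centralizers of involutions are elementary abelian 2-groups -/
def ElC (G : Type*) [Group G] : Prop :=
  ∀ t : G, t ≠ 1 → t * t = 1 → ∀ a : G, a * t = t * a → a * a = 1

omit [Finite Q] in
theorem ElC.abC (h : ElC Q) : AbC Q := by
  intro t ht1 ht2 a b ha hb
  have h1 := h t ht1 ht2 a ha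
  have h2 := h t ht1 ht2 b hb
  have h3 := h t ht1 ht2 (a * b) (by rw [mul_assoc, hb, ← mul_assoc, ha, mul_assoc])
  have h4 : a * b = (b⁻¹ * a⁻¹) := by
    rw [← mul_inv_rev]
    exact eq_inv_of_mul_eq_one_left h3
  rw [h4, ← eq_inv_of_mul_eq_one_left h1, ← eq_inv_of_mul_eq_one_left h2]

omit [Finite Q] in
theorem ElC.of_injective {K : Type*} [Group K] (h : ElC Q) (f : K →* Q) (hf : Function.Injective f) : ElC K := by
  intro t ht1 ht2 a ha
  apply hf
  rw [map_mul, map_one]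
  refine h (f t) ?_ ?_ (f a) ?_
  · intro h0
    exact ht1 (hf (by rw [h0, map_one]))
  · rw [← map_mul, ht2, map_one]
  · rw [← map_mul, ha, map_mul]

theorem elC_sl2 (F : Type*) [Field F] [Fintype F] [CharP F 2] : ElC (Matrix.SpecialLinearGroup (Fin 2) F) := by
  intro t ht1 ht2 a ha
  obtain ⟨c, hc⟩ := isConj_iff.1 (S2302.conj_std t (by rw [pow_two, ht2]) ht1)
  -- `c * std * c⁻¹ = t`
  have h1 : (c⁻¹ * a * c) * S2302.std F = S2302.std F * (c⁻¹ * a * c) := by
    have h2 : S2302.std F = c⁻¹ * t * c := by rw [← hc]; group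
    rw [h2, show c⁻¹ * a * c * (c⁻¹ * t * c) = c⁻¹ * (a * t) * c by group, ha]
    group
  have h3 : (c⁻¹ * a * c) * (c⁻¹ * a * c) = 1 := by
    rw [← pow_two, S2302.sq_eq_one_iff]
    have h4 := congrArg (fun z : Matrix.SpecialLinearGroup (Fin 2) F => (z : Matrix (Fin 2) (Fin 2) F)) h1
    simp only [Matrix.SpecialLinearGroup.coe_mul, S2302.std_coe] at h4
    have h01 := congrFun (congrFun h4 0) 1
    simp only [Matrix.mul_apply, Fin.sum_univ_two, Matrix.of_apply, Matrix.cons_val', Matrix.cons_val_zero,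
      Matrix.cons_val_one, Matrix.cons_val_fin_one] at h01
    simp only [Matrix.SpecialLinearGroup.coe_mul, Matrix.mul_apply, Fin.sum_univ_two] at h01 ⊢
    linear_combination h01
  have h5 : c⁻¹ * (a * a) * c = 1 := by
    rw [← h3]; group
  have h6 : a * a = c * 1 * c⁻¹ := by
    rw [← h5]; group
  rw [h6]; group

theorem trans_of (h : AbC Q) {q : ℕ} (hq : ∀ P : Sylow 2 Q, Nat.card P = q)
    (hsq : ∀ P : Sylow 2 Q, ∀ x ∈ P, x * x = 1) (hN : Nat.card (Sylow 2 Q) = q + 1)
    (P P' : Sylow 2 Q) (hne : P' ≠ P) : ∀ P₁ : Sylow 2 Q, P₁ ≠ P → ∃ x ∈ P, x • P' = P₁ := by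
  classical
  have hfP : Finite {P₁ : Sylow 2 Q // P₁ ≠ P} := inferInstance
  have hxP : ∀ x ∈ P, x • P = P := by
    intro x hx
    rw [Sylow.smul_eq_iff_mem_normalizer]
    exact le_normalizer hx
  let f : P → {P₁ : Sylow 2 Q // P₁ ≠ P} := fun x => ⟨(x : Q) • P', by
    intro h0
    apply hne
    have h1 : (x : Q) • P' = (x : Q) • P := by rw [h0, hxP _ x.2]
    exact smul_left_cancel _ h1⟩
  have hinj : Function.Injective f := by
    intro x y hxy
    have h1 : (x : Q) • P' = (y : Q) • P' := congrArg Subtype.val hxy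
    have h2 : ((y : Q)⁻¹ * x) • P' = P' := by rw [mul_smul, h1, inv_smul_smul]
    have h3 : (y : Q)⁻¹ * x ∈ P := mul_mem (inv_mem y.2) x.2
    by_contra hne'
    have h4 : (y : Q)⁻¹ * x ≠ 1 := by
      intro h0
      apply hne'
      apply Subtype.ext
      exact (inv_mul_eq_one.1 h0).symm
    exact hne (h.smul_ne P P' h4 (hsq P _ h3) h3 h2).symm
  have hcard : Nat.card P = Nat.card {P₁ : Sylow 2 Q // P₁ ≠ P} := by
    have := Fintype.ofFinite (Sylow 2 Q)
    rw [hq P, Nat.card_eq_fintype_card, Fintype.card_subtype_compl, Fintype.card_subtype_eq,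
      ← Nat.card_eq_fintype_card, hN]
    rfl
  have hbij := (Nat.bijective_iff_injective_and_card f).2 ⟨hinj, hcard⟩
  intro P₁ h₁
  obtain ⟨x, hx⟩ := hbij.2 ⟨P₁, h₁⟩
  exact ⟨x, x.2, congrArg Subtype.val hx⟩

omit [Finite Q] in
theorem aut_smul (α : MulAut Q) (y : Q) (R : Sylow 2 Q) : α • (y • R) = (α y) • (α • R) := by
  rw [Sylow.smul_def, Sylow.smul_def, smul_smul, smul_smul]
  congr 1
  ext z
  simp

/-- the kernel of the action on the Sylow subgroups -/
theorem kern (h : ElC Q) {q : ℕ} (hq : ∀ P : Sylow 2 Q, Nat.card P = q) (hq1 : 1 < q)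
    (hsq : ∀ P : Sylow 2 Q, ∀ x ∈ P, x * x = 1) (hN : Nat.card (Sylow 2 Q) = q + 1) {k : Q}
    (hk : ∀ P : Sylow 2 Q, k • P = P) : k = 1 := by
  have hA := h.abC
  obtain ⟨P⟩ : Nonempty (Sylow 2 Q) := inferInstance
  have hP' : ∃ P' : Sylow 2 Q, P' ≠ P := by
    have : Nontrivial (Sylow 2 Q) := Finite.one_lt_card_iff_nontrivial.1 (by omega)
    exact exists_ne P
  obtain ⟨P', hne⟩ := hP'
  have stepA : ∀ c : Q, c * c = 1 → (∀ P : Sylow 2 Q, c • P = P) → c = 1 := by
    intro c hc hcs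
    by_contra hc1
    exact hne (hA.unique P' P hc1 hc (mem_of_norm P' hc (Sylow.smul_eq_iff_mem_normalizer.1 (hcs P')))
      (mem_of_norm P hc (Sylow.smul_eq_iff_mem_normalizer.1 (hcs P))))
  have ht : ∃ t ∈ P, t ≠ 1 := by
    have : Nontrivial P := Finite.one_lt_card_iff_nontrivial.1 (by rw [hq P]; exact hq1)
    obtain ⟨t, ht⟩ := exists_ne (1 : P)
    exact ⟨t, t.2, fun h0 => ht (Subtype.ext h0)⟩
  obtain ⟨t, htP, ht1⟩ := ht
  have hkt : k * t * k⁻¹ * t⁻¹ = 1 := by
    apply stepA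
    · apply hsq P
      refine mul_mem ?_ (inv_mem htP)
      have h1 : k ∈ normalizer ((P : Subgroup Q) : Set Q) := Sylow.smul_eq_iff_mem_normalizer.1 (hk P)
      exact (mem_normalizer_iff.1 h1 t).1 htP
    · intro R
      have h1 : (k * t * k⁻¹ * t⁻¹) • R = k • (t • (k⁻¹ • (t⁻¹ • R))) := by
        simp only [mul_smul]
      have h2 : ∀ R' : Sylow 2 Q, k⁻¹ • R' = R' := fun R' => by
        rw [inv_smul_eq_iff, hk R']
      rw [h1, h2, smul_inv_smul, hk]
  have hkt' : k * t = t * k := by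
    have := mul_inv_eq_one.1 hkt
    rw [mul_inv_eq_iff_eq_mul] at this
    exact this
  exact stepA k (h t ht1 (hsq P t htP) k hkt') hk

/-- an automorphism centralizing a Sylow subgroup is inner -/
theorem aut_inner (h : ElC Q) {q : ℕ} (hq : ∀ P : Sylow 2 Q, Nat.card P = q) (hq1 : 1 < q)
    (hsq : ∀ P : Sylow 2 Q, ∀ x ∈ P, x * x = 1) (hN : Nat.card (Sylow 2 Q) = q + 1) (P : Sylow 2 Q)
    (α : MulAut Q) (hα : ∀ p ∈ P, α p = p) : ∃ s ∈ P, ∀ m : Q, α m = s * m * s⁻¹ := by
  have hA := h.abC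
  have hP' : ∃ P' : Sylow 2 Q, P' ≠ P := by
    have : Nontrivial (Sylow 2 Q) := Finite.one_lt_card_iff_nontrivial.1 (by omega)
    exact exists_ne P
  obtain ⟨P', hne⟩ := hP'
  have hαP : α • P = P := by
    apply Sylow.ext
    rw [Sylow.pointwise_smul_def]
    apply le_antisymm
    · rintro _ ⟨p, hp, rfl⟩
      have : α p = p := hα p hp
      show α p ∈ (P : Subgroup Q)
      rw [this]
      exact hp
    · intro p hp
      exact ⟨p, hp, hα p hp⟩
  have hne2 : α • P' ≠ P := by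
    intro h0
    apply hne
    rw [← hαP] at h0
    exact smul_left_cancel _ h0
  obtain ⟨s, hs, hsP⟩ := trans_of hA hq hsq hN P P' hne _ hne2
  refine ⟨s, hs, ?_⟩
  set β : MulAut Q := (MulAut.conj s)⁻¹ * α with hβ
  have hβm : ∀ m, β m = s⁻¹ * α m * s := by
    intro m
    rw [hβ, MulAut.mul_apply]
    rw [← map_inv MulAut.conj]
    simp
  have hβP : ∀ p ∈ P, β p = p := by
    intro p hp
    rw [hβm, hα p hp, mul_assoc, hA.sylow P hp hs, inv_mul_cancel_left]
  have hβP' : β • P' = P' := by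
    rw [hβ, mul_smul, ← hsP, Sylow.smul_def, inv_smul_smul]
  have hall : ∀ P₁ : Sylow 2 Q, β • P₁ = P₁ := by
    intro P₁
    by_cases h₁ : P₁ = P
    · rw [h₁]
      apply Sylow.ext
      rw [Sylow.pointwise_smul_def]
      apply le_antisymm
      · rintro _ ⟨p, hp, rfl⟩
        have : β p = p := hβP p hp
        show β p ∈ (P : Subgroup Q)
        rw [this]
        exact hp
      · intro p hp
        exact ⟨p, hp, hβP p hp⟩
    · obtain ⟨y, hy, hyP⟩ := trans_of hA hq hsq hN P P' hne P₁ h₁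
      rw [← hyP, aut_smul, hβP y hy, hβP']
  have hβ1 : ∀ m, β m = m := by
    intro m
    have h1 : m⁻¹ * β m = 1 := by
      apply kern h hq hq1 hsq hN
      intro R
      have h2 := aut_smul β m R
      rw [hall R, hall (m • R)] at h2
      rw [mul_smul, ← h2, inv_smul_smul]
    exact (inv_mul_eq_one.1 h1).symm
  intro m
  have h1 := hβ1 m
  rw [hβm] at h1
  calc α m = s * (s⁻¹ * α m * s) * s⁻¹ := by group
    _ = s * m * s⁻¹ := by rw [h1]

end

end Cfsg.Agent.H40.EvenL
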