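import Mathlib

/-!
# Finite groups in which the centralizers of involutions are abelian
-/

set_option autoImplicit false

namespace Cfsg.Agent.H40.EvenL

open Subgroup

/-- centralizers of involutions are abelian -/
def AbC (G : Type*) [Group G] : Prop :=
  ∀ t : G, t ≠ 1 → t * t = 1 → ∀ a b : G, a * t = t * a → b * t = t * b → a * b = b * a

section
variable {G : Type*} [Group G]

theorem AbC.of_injective {K : Type*} [Group K] (h : AbC G) (f : K →* G) (hf : Function.Injective f) : AbC K := by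
  intro t ht1 ht2 a b ha hb
  apply hf
  rw [map_mul, map_mul]
  refine h (f t) ?_ ?_ (f a) (f b) ?_ ?_
  · intro h0
    exact ht1 (hf (by rw [h0, map_one]))
  · rw [← map_mul, ht2, map_one]
  · rw [← map_mul, ha, map_mul]
  · rw [← map_mul, hb, map_mul]

variable [Finite G]

theorem AbC.sylow (h : AbC G) (P : Sylow 2 G) {a b : G} (ha : a ∈ P) (hb : b ∈ P) : a * b = b * a := by
  have := Fact.mk Nat.prime_two
  by_cases hn : Nontrivial P
  · have hc : Nontrivial (center P) := P.isPGroup'.center_nontrivial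
    have hcp : IsPGroup 2 (center P) := P.isPGroup'.to_subgroup _
    obtain ⟨k, hk⟩ := IsPGroup.iff_card.1 hcp
    have hk0 : k ≠ 0 := by
      rintro rfl
      rw [pow_zero, Nat.card_eq_one_iff_unique] at hk
      have := hk.1
      exact not_subsingleton (center P) this
    obtain ⟨z, hz⟩ := exists_prime_orderOf_dvd_card' (G := center P) 2 (hk ▸ dvd_pow_self 2 hk0)
    have hz1 : (z : P) ≠ 1 := by
      intro h0
      have : z = 1 := Subtype.ext h0
      rw [this, orderOf_one] at hz
      norm_num at hz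
    have hz2 : (z : P) * z = 1 := by
      have := pow_orderOf_eq_one z
      rw [hz, pow_two] at this
      exact congrArg Subtype.val this
    have hcen : ∀ x : P, x * (z : P) = z * x := fun x => (mem_center_iff.1 z.2 x)
    have := h (((z : P) : G)) (fun h0 => hz1 (Subtype.ext h0)) (congrArg Subtype.val hz2) a b
      (congrArg Subtype.val (hcen ⟨a, ha⟩)) (congrArg Subtype.val (hcen ⟨b, hb⟩))
    exact this
  · rw [not_nontrivial_iff_subsingleton] at hn
    have h1 : (⟨a, ha⟩ : P) = ⟨b, hb⟩ := Subsingleton.elim _ _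
    have h2 : a = b := congrArg Subtype.val h1
    rw [h2]

theorem isPGroup_zpowers {x : G} {k : ℕ} (hx : orderOf x = 2 ^ k) : IsPGroup 2 (zpowers x) :=
  IsPGroup.of_card (n := k) (by rw [Nat.card_zpowers, hx])

theorem order_of_sq {x : G} (hx : x * x = 1) : ∃ k, orderOf x = 2 ^ k := by
  have h : orderOf x ∣ 2 ^ 1 := orderOf_dvd_of_pow_eq_one (by rw [pow_one, pow_two, hx])
  obtain ⟨k, -, hk⟩ := (Nat.dvd_prime_pow Nat.prime_two).1 h
  exact ⟨k, hk⟩

/-- a 2-element normalizing a Sylow subgroup lies in it -/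
theorem mem_of_norm (P : Sylow 2 G) {x : G} (hx : x * x = 1) (hn : x ∈ normalizer (P : Set G)) : x ∈ P := by
  have := Fact.mk Nat.prime_two
  obtain ⟨k, hk⟩ := order_of_sq hx
  have h2 := (isPGroup_zpowers hk).inf_normalizer_sylow P
  have h3 : x ∈ zpowers x ⊓ normalizer (P : Set G) := ⟨mem_zpowers x, hn⟩
  rw [h2] at h3
  exact h3.2

theorem mem_sylow {x : G} {k : ℕ} (hx : orderOf x = 2 ^ k) : ∃ P : Sylow 2 G, x ∈ P := by
  obtain ⟨P, hP⟩ := (isPGroup_zpowers hx).exists_le_sylow
  exact ⟨P, hP (mem_zpowers x)⟩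

/-- trivial intersection -/
theorem AbC.unique (h : AbC G) (P P' : Sylow 2 G) {t : G} (ht1 : t ≠ 1) (ht2 : t * t = 1) (hP : t ∈ P)
    (hP' : t ∈ P') : P = P' := by
  have := Fact.mk Nat.prime_two
  have key : (P' : Subgroup G) ≤ normalizer (P : Set G) := by
    intro x hx
    have hc : ∀ y ∈ (P : Subgroup G), x * y = y * x := fun y hy =>
      h t ht1 ht2 x y (h.sylow P' hx hP') (h.sylow P hy hP)
    show x ∈ normalizer ((P : Subgroup G) : Set G)
    rw [mem_normalizer_iff]
    intro y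
    constructor
    · intro hy
      rw [hc y hy, mul_inv_cancel_right]
      exact hy
    · intro hy
      have h1 := hc _ hy
      have h2 : x * y * x⁻¹ = y := by
        have h3 : x * y * x⁻¹ * x = x * y := by group
        have h4 : x * (x * y * x⁻¹) = x * y := by rw [h1, h3]
        exact mul_left_cancel h4
      rw [← h2]
      exact hy
  have h1 := P'.isPGroup'.inf_normalizer_sylow P
  rw [inf_eq_left.2 key] at h1
  have h2 : (P' : Subgroup G) ≤ P := by rw [h1]; exact inf_le_right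
  have h3 := P'.is_maximal' P.isPGroup' h2
  exact Sylow.ext h3

/-- Sylow subgroups are `TI`: an involution of `P` normalizes no other Sylow subgroup -/
theorem AbC.smul_ne (h : AbC G) (P P' : Sylow 2 G) {t : G} (ht1 : t ≠ 1) (ht2 : t * t = 1) (hP : t ∈ P)
    (hs : t • P' = P') : P = P' := by
  have h1 : t ∈ normalizer (P' : Set G) := Sylow.smul_eq_iff_mem_normalizer.1 hs
  exact h.unique P P' ht1 ht2 hP (mem_of_norm P' ht2 h1)

/-- the involutions are partitioned by the Sylow subgroups -/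
theorem AbC.card_inv (h : AbC G) {q : ℕ} (hq : ∀ P : Sylow 2 G, Nat.card P = q)
    (hsq : ∀ P : Sylow 2 G, ∀ x ∈ P, x * x = 1) :
    Nat.card {x : G // x ≠ 1 ∧ x * x = 1} = Nat.card (Sylow 2 G) * (q - 1) := by
  classical
  have := Fact.mk Nat.prime_two
  have := Fintype.ofFinite (Sylow 2 G)
  have e : (Σ P : Sylow 2 G, {x : P // x ≠ 1}) ≃ {x : G // x ≠ 1 ∧ x * x = 1} := by
    refine Equiv.ofBijective (fun y => ⟨((y.2 : y.1) : G), ?_, ?_⟩) ⟨?_, ?_⟩
    · exact fun h0 => y.2.2 (Subtype.ext h0)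
    · exact hsq y.1 _ y.2.1.2
    · rintro ⟨P, x, hx⟩ ⟨P', x', hx'⟩ hh
      have h1 : (x : G) = x' := congrArg Subtype.val hh
      have hx1 : (x : G) ≠ 1 := fun h0 => hx (Subtype.ext h0)
      have h2 : P = P' := h.unique P P' hx1 (hsq P _ x.2) x.2 (h1 ▸ x'.2)
      subst h2
      congr 1
      exact Subtype.ext (Subtype.ext h1)
    · rintro ⟨x, hx1, hx2⟩
      obtain ⟨k, hk⟩ := order_of_sq hx2
      obtain ⟨P, hP⟩ := mem_sylow hk
      exact ⟨⟨P, ⟨⟨x, hP⟩, fun h0 => hx1 (congrArg Subtype.val h0)⟩⟩, rfl⟩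
  rw [← Nat.card_congr e, Nat.card_sigma]
  rw [Finset.sum_congr rfl (g := fun _ => q - 1), Finset.sum_const, Finset.card_univ, smul_eq_mul,
    Nat.card_eq_fintype_card]
  intro P _
  have := Fintype.ofFinite P
  rw [Nat.card_eq_fintype_card, Fintype.card_subtype_compl, Fintype.card_subtype_eq, ← Nat.card_eq_fintype_card]
  exact congrArg (fun n => n - 1) (hq P)

/-- the key point: no element of odd prime order centralizes an involution -/
theorem AbC.no_odd (h : AbC G) {q : ℕ} (hq : ∀ P : Sylow 2 G, Nat.card P = q) (hq2 : ∃ n, 1 ≤ n ∧ q = 2 ^ n)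
    (hsq : ∀ P : Sylow 2 G, ∀ x ∈ P, x * x = 1) (hN : Nat.card (Sylow 2 G) = q + 1)
    (hO : ∀ N : Subgroup G, N.Normal → Odd (Nat.card N) → N = ⊥)
    {t c : G} (ht1 : t ≠ 1) (ht2 : t * t = 1) (hct : c * t = t * c) {r : ℕ} (hr : r.Prime) (hr2 : r ≠ 2)
    (hc : orderOf c = r) : False := by
  classical
  have := Fact.mk Nat.prime_two
  have hrf := Fact.mk hr
  obtain ⟨n, hn, hqn⟩ := hq2
  obtain ⟨k, hk⟩ := order_of_sq ht2
  obtain ⟨P, hP⟩ := mem_sylow hk
  have hcP : ∀ x ∈ P, c * x = x * c := fun x hx => h t ht1 ht2 c x hct (h.sylow P hx hP)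
  have hcs : c • P = P := by
    rw [Sylow.smul_eq_iff_mem_normalizer]
    show c ∈ normalizer ((P : Subgroup G) : Set G)
    rw [mem_normalizer_iff]
    intro y
    constructor
    · intro hy
      have h1 := hcP y hy
      show c * y * c⁻¹ ∈ P
      rw [h1, mul_inv_cancel_right]
      exact hy
    · intro hy
      have h1 := hcP _ hy
      have h2 : c * y * c⁻¹ = y := by
        have h3 : c * y * c⁻¹ * c = c * y := by group
        have h4 : c * (c * y * c⁻¹) = c * y := by rw [h1, h3]
        exact mul_left_cancel h4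
      have hy' : c * y * c⁻¹ ∈ P := hy
      rw [h2] at hy'
      exact hy'
  -- a second fixed Sylow subgroup
  have hfix : ∃ P' : Sylow 2 G, P' ≠ P ∧ c • P' = P' := by
    by_contra hcon
    push Not at hcon
    have hpg : IsPGroup r (zpowers c) := IsPGroup.of_card (n := 1) (by rw [Nat.card_zpowers, hc, pow_one])
    have h1 := hpg.card_modEq_card_fixedPoints (Sylow 2 G)
    have h2 : Nat.card (MulAction.fixedPoints (zpowers c) (Sylow 2 G)) = 1 := by
      rw [Nat.card_eq_one_iff_unique]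
      refine ⟨⟨?_⟩, ⟨⟨P, ?_⟩⟩⟩
      · rintro ⟨P₁, h₁⟩ ⟨P₂, h₂⟩
        have hf : ∀ P₀ : Sylow 2 G, P₀ ∈ MulAction.fixedPoints (zpowers c) (Sylow 2 G) → P₀ = P := by
          intro P₀ h0
          by_contra hne
          exact hcon P₀ hne (h0 ⟨c, mem_zpowers c⟩)
        apply Subtype.ext
        exact (hf P₁ h₁).trans (hf P₂ h₂).symm
      · rintro ⟨g, hg⟩
        obtain ⟨m, rfl⟩ := hg
        show c ^ m • P = P
        have : c ∈ MulAction.stabilizer G P := hcs
        exact zpow_mem this m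
    rw [h2, hN] at h1
    have h3 : q ≡ 0 [MOD r] := by
      have : q + 1 ≡ 0 + 1 [MOD r] := by simpa using h1
      exact Nat.ModEq.add_right_cancel' 1 this
    have h4 : r ∣ q := (Nat.modEq_zero_iff_dvd).1 h3
    rw [hqn] at h4
    exact hr2 ((Nat.prime_dvd_prime_iff_eq hr Nat.prime_two).1 (hr.dvd_of_dvd_pow h4))
  obtain ⟨P', hne, hP'⟩ := hfix
  -- `P` is transitive on the other Sylow subgroups
  have htrans : ∀ P₁ : Sylow 2 G, P₁ ≠ P → ∃ x ∈ P, x • P' = P₁ := by
    have hfP : Finite {P₁ : Sylow 2 G // P₁ ≠ P} := inferInstance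
    have hxP : ∀ x ∈ P, x • P = P := by
      intro x hx
      rw [Sylow.smul_eq_iff_mem_normalizer]
      exact le_normalizer hx
    let f : P → {P₁ : Sylow 2 G // P₁ ≠ P} := fun x => ⟨(x : G) • P', by
      intro h0
      apply hne
      have h1 : (x : G) • P' = (x : G) • P := by rw [h0, hxP _ x.2]
      exact smul_left_cancel _ h1⟩
    have hinj : Function.Injective f := by
      intro x y hxy
      have h1 : (x : G) • P' = (y : G) • P' := congrArg Subtype.val hxy
      have h2 : ((y : G)⁻¹ * x) • P' = P' := by rw [mul_smul, h1, inv_smul_smul]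
      have h3 : (y : G)⁻¹ * x ∈ P := mul_mem (inv_mem y.2) x.2
      by_contra hne'
      have h4 : (y : G)⁻¹ * x ≠ 1 := by
        intro h0
        apply hne'
        apply Subtype.ext
        exact (inv_mul_eq_one.1 h0).symm
      exact hne (h.smul_ne P P' h4 (hsq P _ h3) h3 h2).symm
    have hcard : Nat.card P = Nat.card {P₁ : Sylow 2 G // P₁ ≠ P} := by
      have := Fintype.ofFinite (Sylow 2 G)
      rw [hq P, Nat.card_eq_fintype_card, Fintype.card_subtype_compl, Fintype.card_subtype_eq,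
        ← Nat.card_eq_fintype_card, hN]
      rfl
    have hbij := (Nat.bijective_iff_injective_and_card f).2 ⟨hinj, hcard⟩
    intro P₁ h₁
    obtain ⟨x, hx⟩ := hbij.2 ⟨P₁, h₁⟩
    exact ⟨x, x.2, congrArg Subtype.val hx⟩
  have hall : ∀ P₁ : Sylow 2 G, c • P₁ = P₁ := by
    intro P₁
    by_cases h₁ : P₁ = P
    · rw [h₁, hcs]
    · obtain ⟨x, hx, hxP⟩ := htrans P₁ h₁
      rw [← hxP, ← mul_smul, hcP x hx, mul_smul, hP']
  -- the kernel is a normal subgroup of odd order
  let K : Subgroup G := (MulAction.toPermHom G (Sylow 2 G)).ker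
  have hKm : ∀ x : G, x ∈ K ↔ ∀ P₁ : Sylow 2 G, x • P₁ = P₁ := by
    intro x
    rw [MonoidHom.mem_ker]
    constructor
    · intro h0 P₁
      have := congrArg (fun σ => σ P₁) h0
      simpa using this
    · intro h0
      ext1 P₁
      simpa using h0 P₁
  have hK : Odd (Nat.card K) := by
    rw [← Nat.not_even_iff_odd]
    intro hev
    obtain ⟨z, hz⟩ := exists_prime_orderOf_dvd_card' 2 hev.two_dvd
    have hz1 : (z : G) ≠ 1 := by
      intro h0
      have : z = 1 := Subtype.ext h0
      rw [this, orderOf_one] at hz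
      norm_num at hz
    have hz2 : (z : G) * z = 1 := by
      have := pow_orderOf_eq_one z
      rw [hz, pow_two] at this
      exact congrArg Subtype.val this
    have hzK := (hKm z).1 z.2
    have hzP : (z : G) ∈ P := mem_of_norm P hz2 (Sylow.smul_eq_iff_mem_normalizer.1 (hzK P))
    exact hne (h.smul_ne P P' hz1 hz2 hzP (hzK P')).symm
  have hKb := hO K inferInstance hK
  have hcK : c ∈ K := (hKm c).2 hall
  rw [hKb, mem_bot] at hcK
  rw [hcK, orderOf_one] at hc
  exact hr.one_lt.ne hc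

/-- the hypotheses of S1230 -/
theorem AbC.centralizer_sq (h : AbC G) {q : ℕ} (hq : ∀ P : Sylow 2 G, Nat.card P = q)
    (hq2 : ∃ n, 1 ≤ n ∧ q = 2 ^ n)
    (hsq : ∀ P : Sylow 2 G, ∀ x ∈ P, x * x = 1) (hN : Nat.card (Sylow 2 G) = q + 1)
    (hO : ∀ N : Subgroup G, N.Normal → Odd (Nat.card N) → N = ⊥)
    {t c : G} (ht1 : t ≠ 1) (ht2 : t * t = 1) (hct : c * t = t * c) : c * c = 1 := by
  have h1 : ∃ k, orderOf c = 2 ^ k := by
    refine ⟨(orderOf c).primeFactorsList.length, ?_⟩
    refine Nat.eq_prime_pow_of_unique_prime_dvd (orderOf_pos c).ne' ?_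
    intro r hr hrd
    by_contra hr2
    have h2 : orderOf (c ^ (orderOf c / r)) = r := by
      have h4 := orderOf_pow_orderOf_div (x := c) (n := r) (orderOf_pos c).ne' hrd
      exact h4
    have h3 : Commute (c ^ (orderOf c / r)) t := Commute.pow_left hct _
    exact h.no_odd hq hq2 hsq hN hO ht1 ht2 h3 hr hr2 h2
  obtain ⟨k, hk⟩ := h1
  obtain ⟨P, hP⟩ := mem_sylow hk
  exact hsq P c hP

end

end Cfsg.Agent.H40.EvenL
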