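import Cfsg.Agent.H40.EvenS
import Cfsg.Agent.BS.List
import Cfsg.Agent.S1230
import Cfsg.Agent.S1141
import Cfsg.Agent.S0330
import Cfsg.Agent.Suzuki.LieIso

/-!
# Finite groups in which the centralizers of involutions are abelian: recognition of `PSL(2, 2 ^ n)`
-/

set_option autoImplicit false

namespace Cfsg.Agent.H40.EvenL

open Subgroup

section
variable {Q : Type*} [Group Q] [Finite Q]

theorem center_sylow_eq_top (h : AbC Q) (P : Sylow 2 Q) : center (P : Subgroup Q) = ⊤ := by
  rw [eq_top_iff]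
  intro x _
  rw [mem_center_iff]
  intro y
  exact Subtype.ext (h.sylow P y.2 x.2)

/-- the list of Bender for `AbC` groups -/
theorem psl_of_inList {L : Type*} [Group L] [Finite L] (h : AbC L) (hl : BS.InList L) :
    ∃ (F : Type) (_ : Field F) (_ : Fintype F) (n : ℕ), 2 ≤ n ∧ Fintype.card F = 2 ^ n ∧
      Nonempty (L ≃* Matrix.ProjectiveSpecialLinearGroup (Fin 2) F) := by
  have := Fact.mk Nat.prime_two
  rcases hl with hl | ⟨F, i1, i2, m, hm, hc, ⟨f⟩⟩ | ⟨F, i1, i2, n, hn, hc, ⟨f⟩⟩
  · exact hl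
  · exfalso
    obtain ⟨e⟩ := Suz.nonempty_lieEquiv hm hc
    have h1 : AbC (Cfsg.Sz F m) := h.of_injective (e.trans f.symm).toMonoidHom (e.trans f.symm).injective
    have : Finite (Cfsg.Sz F m) := Finite.of_equiv L (e.trans f.symm).symm.toEquiv
    let P : Sylow 2 (Cfsg.Sz F m) := default
    obtain ⟨h2, -, -, h3⟩ := S0330.result hm hc P
    rw [center_sylow_eq_top h1 P, Subgroup.card_top, h2] at h3
    have h4 : 1 < 2 ^ (2 * m + 1) := Nat.one_lt_two_pow (by omega)
    nlinarith
  · exfalso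
    have h1 : AbC (Cfsg.PSU 3 F (2 ^ n)) := h.of_injective f.symm.toMonoidHom f.symm.injective
    have : Finite (Cfsg.PSU 3 F (2 ^ n)) := Finite.of_equiv L f.toEquiv
    let P : Sylow 2 (Cfsg.PSU 3 F (2 ^ n)) := default
    obtain ⟨h2, h3, -⟩ := S1141.result hn hc P
    rw [center_sylow_eq_top h1 P, Subgroup.card_top, h2] at h3
    have h4 : 1 < 2 ^ n := Nat.one_lt_two_pow (by omega)
    have h5 : (2 ^ n) ^ 1 < (2 ^ n) ^ 3 := Nat.pow_lt_pow_right h4 (by norm_num)
    rw [h3, pow_one] at h5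
    exact lt_irrefl _ h5

/-- elements of 2-power order lie in the normal subgroups of odd index -/
theorem mem_of_two_elt {L : Subgroup Q} [L.Normal] (hi : Odd L.index) {x : Q} {k : ℕ} (hx : x ^ (2 ^ k) = 1) :
    x ∈ L := by
  have h1 : orderOf (QuotientGroup.mk' L x) ∣ 2 ^ k := by
    apply orderOf_dvd_of_pow_eq_one
    rw [← map_pow, hx, map_one]
  have h2 : orderOf (QuotientGroup.mk' L x) ∣ L.index := orderOf_dvd_natCard _
  have h3 : orderOf (QuotientGroup.mk' L x) = 1 := by
    have hc : (orderOf (QuotientGroup.mk' L x)).Coprime L.index :=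
      (Nat.Coprime.pow_left k (Nat.coprime_two_left.2 hi)).coprime_dvd_left h1
    exact Nat.Coprime.eq_one_of_dvd hc h2
  rw [orderOf_eq_one_iff] at h3
  exact (QuotientGroup.eq_one_iff x).1 h3

/-- **Recognition** -/
theorem recog (h : AbC Q) (hO : ∀ N : Subgroup Q, N.Normal → Odd (Nat.card N) → N = ⊥)
    (L : Subgroup Q) [L.Normal] (hi : Odd L.index) (hl : BS.InList L) :
    ∃ (F : Type) (_ : Field F) (_ : Fintype F), CharP F 2 ∧ 4 ≤ Fintype.card F ∧
      Nonempty (Q ≃* Matrix.ProjectiveSpecialLinearGroup (Fin 2) F) := by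
  classical
  have hf2 := Fact.mk Nat.prime_two
  obtain ⟨F, i1, i2, n, hn, hc, ⟨f⟩⟩ := psl_of_inList (h.of_injective L.subtype L.subtype_injective) hl
  have hch : CharP F 2 := charP_of_card_eq_prime_pow hc
  obtain ⟨e0⟩ := BS.sl2_equiv_psl2 F
  let e : L ≃* Matrix.SpecialLinearGroup (Fin 2) F := f.trans e0.symm
  set q := 2 ^ n with hqdef
  have hq4 : 4 ≤ q := by
    calc 4 = 2 ^ 2 := by norm_num
      _ ≤ 2 ^ n := Nat.pow_le_pow_right (by norm_num) hn
  have hqe : Even q := by
    rw [hqdef, Nat.even_pow]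
    exact ⟨even_two, by omega⟩
  -- order of `Q`
  have hcL : Nat.card L = (q + 1) * (q * (q - 1)) := by
    rw [Nat.card_congr e.toEquiv, H34.card_sl2, Nat.card_eq_fintype_card, hc]
  have hcQ : Nat.card Q = 2 ^ n * ((q + 1) * (q - 1) * L.index) := by
    rw [← L.card_mul_index, hcL, ← hqdef]
    ring
  have hodd : Odd ((q + 1) * (q - 1) * L.index) := by
    refine Odd.mul (Odd.mul ?_ ?_) hi
    · exact Even.add_one hqe
    · exact Nat.Even.sub_odd (by omega) hqe odd_one
  have hP : ∀ P : Sylow 2 Q, Nat.card P = q := by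
    intro P
    apply Nat.dvd_antisymm
    · obtain ⟨k, hk⟩ := IsPGroup.iff_card.1 P.isPGroup'
      have h1 : Nat.card P ∣ 2 ^ n * ((q + 1) * (q - 1) * L.index) := by
        rw [← hcQ]
        exact card_subgroup_dvd_card _
      rw [hk] at h1 ⊢
      exact (Nat.Coprime.pow_left k (Nat.coprime_two_left.2 hodd)).dvd_of_dvd_mul_right h1
    · exact P.pow_dvd_card_of_pow_dvd_card (by rw [hcQ]; exact dvd_mul_right _ _)
  -- squares
  have hsqe : ∀ (k : ℕ) (x : Q), x ^ (2 ^ k) = 1 → x * x = 1 := by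
    intro k x hx
    have hxL : x ∈ L := mem_of_two_elt hi hx
    have h1 : e ⟨x, hxL⟩ ^ (2 ^ k) = 1 := by
      rw [← map_pow]
      have : (⟨x, hxL⟩ : L) ^ (2 ^ k) = 1 := Subtype.ext hx
      rw [this, map_one]
    have h2 := two_elt k _ h1
    rw [← map_mul, ← map_one e] at h2
    exact congrArg Subtype.val (e.injective h2)
  have hsq : ∀ P : Sylow 2 Q, ∀ x ∈ P, x * x = 1 := by
    intro P x hx
    obtain ⟨k, hk⟩ := P.isPGroup' ⟨x, hx⟩
    exact hsqe k x (congrArg Subtype.val hk)
  -- involutions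
  have hI : Nat.card {x : Q // x ≠ 1 ∧ x * x = 1} + 1 = q ^ 2 := by
    have e1 : {x : Q // x ≠ 1 ∧ x * x = 1} ≃ {x : Matrix.SpecialLinearGroup (Fin 2) F // x ≠ 1 ∧ x * x = 1} :=
      { toFun := fun x => ⟨e ⟨x.1, mem_of_two_elt hi (k := 1) (by rw [pow_one, pow_two, x.2.2])⟩, by
          intro h0
          rw [← map_one e] at h0
          exact x.2.1 (congrArg Subtype.val (e.injective h0)), by
          rw [← map_mul, ← map_one e]
          exact congrArg e (Subtype.ext x.2.2)⟩
        invFun := fun y => ⟨(e.symm y.1 : L), by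
          intro h0
          have h1 : e.symm y.1 = 1 := Subtype.ext h0
          rw [← map_one e.symm] at h1
          exact y.2.1 (e.symm.injective h1), by
          have h1 : e.symm y.1 * e.symm y.1 = 1 := by rw [← map_mul, y.2.2, map_one]
          exact congrArg Subtype.val h1⟩
        left_inv := by
          rintro ⟨x, hx⟩
          apply Subtype.ext
          simp
        right_inv := by
          rintro ⟨y, hy⟩
          apply Subtype.ext
          simp }
    rw [Nat.card_congr e1, card_sl2_inv F, hc]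
  have hN : Nat.card (Sylow 2 Q) = q + 1 := by
    have h1 := h.card_inv hP hsq
    rw [h1] at hI
    obtain ⟨r, hr⟩ : ∃ r, q = r + 2 := ⟨q - 2, by omega⟩
    have h2 : q - 1 = r + 1 := by omega
    rw [h2, hr] at hI
    have h3 : (Nat.card (Sylow 2 Q)) * (r + 1) = (r + 3) * (r + 1) := by nlinarith
    have h4 := Nat.eq_of_mul_eq_mul_right (by omega) h3
    omega
  -- the recognition theorem
  let T : Sylow 2 Q := default
  have hnc : ¬ IsCyclic (T : Subgroup Q) := by
    intro hcy
    obtain ⟨g, hg⟩ := hcy.exists_generator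
    have h1 : orderOf g = q := by rw [orderOf_eq_card_of_forall_mem_zpowers hg]; exact hP T
    have h2 : orderOf g ∣ 2 := orderOf_dvd_of_pow_eq_one (by
      rw [pow_two]
      exact Subtype.ext (hsq T _ g.2))
    have := Nat.le_of_dvd (by norm_num) h2
    omega
  have hnn : ¬ (T : Subgroup Q).Normal := by
    intro hTn
    have h1 := Sylow.unique_of_normal T hTn
    have h2 : Nat.card (Sylow 2 Q) = 1 := by
      have := h1
      exact Nat.card_unique
    omega
  obtain ⟨F', j1, j2, hcF', ⟨g⟩⟩ := S1230.result T hnc hnn (fun t ht => by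
    have ht1 : t ≠ 1 := by
      rintro rfl
      rw [orderOf_one] at ht
      norm_num at ht
    have ht2 : t * t = 1 := by
      rw [← pow_two, ← ht]
      exact pow_orderOf_eq_one t
    refine ⟨⟨⟨?_⟩⟩, ?_⟩
    · rintro ⟨a, ha⟩ ⟨b, hb⟩
      exact Subtype.ext (h t ht1 ht2 a b (mem_centralizer_singleton_iff.1 ha)
        (mem_centralizer_singleton_iff.1 hb))
    · intro c hc
      rw [pow_two]
      exact h.centralizer_sq hP ⟨n, by omega, rfl⟩ hsq hN hO ht1 ht2 (mem_centralizer_singleton_iff.1 hc))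
  have hcF : Fintype.card F' = 2 ^ n := by rw [hcF']; exact hP T
  exact ⟨F', j1, j2, charP_of_card_eq_prime_pow hcF, by rw [hcF]; exact hq4, ⟨g⟩⟩

end

end Cfsg.Agent.H40.EvenL
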