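import Cfsg.Agent.H40.EvenQ
import Cfsg.Agent.S2302
import Cfsg.Agent.H34.Mobius

/-!
# `SL(2, 2 ^ n)`: involutions
-/

set_option autoImplicit false

namespace Cfsg.Agent.H40.EvenL

open Matrix


theorem card_sl2_inv (F : Type*) [Field F] [Fintype F] [CharP F 2] :
    Nat.card {x : SpecialLinearGroup (Fin 2) F // x ≠ 1 ∧ x * x = 1} + 1 = Fintype.card F ^ 2 := by
  classical
  have hsq : ∀ a b : F, a * a = b * b → a = b := by
    intro a b hab
    have h2 : (2 : F) = 0 := CharTwo.two_eq_zero
    have h1 : (a - b) * (a - b) = 0 := by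
      linear_combination hab + (b * b - a * b) * h2
    exact sub_eq_zero.1 (mul_self_eq_zero.1 h1)
  have hsur : ∀ a : F, ∃ b : F, b * b = a := by
    have hinj : Function.Injective (fun b : F => b * b) := fun a b hab => hsq a b hab
    exact fun a => (Finite.surjective_of_injective hinj) a
  have e : {x : SpecialLinearGroup (Fin 2) F // x * x = 1} ≃ F × F := by
    refine Equiv.ofBijective (fun x => ((x : SpecialLinearGroup (Fin 2) F) 0 1,
      (x : SpecialLinearGroup (Fin 2) F) 1 0)) ⟨?_, ?_⟩
    · rintro ⟨x, hx⟩ ⟨y, hy⟩ hxy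
      simp only [Prod.mk.injEq] at hxy
      obtain ⟨h1, h2⟩ := hxy
      rw [← pow_two, S2302.sq_eq_one_iff] at hx hy
      have hdx := x.det_coe
      have hdy := y.det_coe
      rw [det_fin_two] at hdx hdy
      have h3 : x 0 0 = y 0 0 := by
        apply hsq
        have e1 : x 0 0 * x 0 0 = 1 + x 0 1 * x 1 0 := by
          have := hdx
          rw [← hx] at this
          linear_combination this
        have e2 : y 0 0 * y 0 0 = 1 + y 0 1 * y 1 0 := by
          have := hdy
          rw [← hy] at this
          linear_combination this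
        rw [e1, e2, h1, h2]
      apply Subtype.ext
      apply Matrix.SpecialLinearGroup.ext
      intro i j
      fin_cases i <;> fin_cases j
      · exact h3
      · exact h1
      · exact h2
      · show x 1 1 = y 1 1
        rw [← hx, ← hy]
        exact h3
    · rintro ⟨b, c⟩
      obtain ⟨a, ha⟩ := hsur (1 + b * c)
      have hd : (!![a, b; c, a] : Matrix (Fin 2) (Fin 2) F).det = 1 := by
        rw [det_fin_two_of, ha]
        ring
      obtain ⟨g, hg0⟩ : ∃ g : Matrix.SpecialLinearGroup (Fin 2) F, (g : Matrix (Fin 2) (Fin 2) F) = !![a, b; c, a] :=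
        ⟨⟨!![a, b; c, a], hd⟩, rfl⟩
      have hg : g * g = 1 := by
        rw [← pow_two, S2302.sq_eq_one_iff, hg0]
        rfl
      refine ⟨⟨g, hg⟩, ?_⟩
      simp [hg0]
  have h1 : Nat.card {x : SpecialLinearGroup (Fin 2) F // x * x = 1} = Fintype.card F ^ 2 := by
    rw [Nat.card_congr e, Nat.card_prod, Nat.card_eq_fintype_card, pow_two]
  rw [← h1]
  have e2 : {x : SpecialLinearGroup (Fin 2) F // x * x = 1} ≃ Option {x : SpecialLinearGroup (Fin 2) F // x ≠ 1 ∧ x * x = 1} :=
    { toFun := fun x => if h : x.1 = 1 then none else some ⟨x.1, h, x.2⟩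
      invFun := fun y => y.elim ⟨1, one_mul 1⟩ (fun z => ⟨z.1, z.2.2⟩)
      left_inv := by
        rintro ⟨x, hx⟩
        by_cases h : x = 1
        · simp [h]
        · simp [h]
      right_inv := by
        rintro (_ | ⟨x, hx, hx2⟩)
        · simp
        · simp [hx] }
  rw [Nat.card_congr e2, Finite.card_option]

theorem two_elt {F : Type*} [Field F] [CharP F 2] (k : ℕ) (x : SpecialLinearGroup (Fin 2) F)
    (hx : x ^ (2 ^ k) = 1) : x * x = 1 := by
  have hsq : ∀ a b : F, a * a = b * b → a = b := by
    intro a b hab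
    have h2 : (2 : F) = 0 := CharTwo.two_eq_zero
    have h1 : (a - b) * (a - b) = 0 := by
      linear_combination hab + (b * b - a * b) * h2
    exact sub_eq_zero.1 (mul_self_eq_zero.1 h1)
  rw [← pow_two, S2302.sq_eq_one_iff]
  induction k generalizing x with
  | zero =>
    rw [pow_zero, pow_one] at hx
    rw [hx]
    simp
  | succ k ih =>
    have h1 := ih (x ^ 2) (by rw [← pow_mul, ← pow_succ', hx])
    apply hsq
    rw [pow_two, Matrix.SpecialLinearGroup.coe_mul, mul_apply, mul_apply, Fin.sum_univ_two, Fin.sum_univ_two] at h1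
    linear_combination h1

end Cfsg.Agent.H40.EvenL
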