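import Mathlib

set_option autoImplicit false

namespace Cfsg.Agent.H40

open Matrix

variable {F : Type*} [Field F] {n : ℕ}

/-- permutation matrix with `P e_j = e_{σ j}`. -/
def permM (F : Type*) [Field F] {n : ℕ} (σ : Equiv.Perm (Fin n)) : Matrix (Fin n) (Fin n) F :=
  Matrix.of fun i j => if i = σ j then 1 else 0

lemma permM_apply (σ : Equiv.Perm (Fin n)) (i j : Fin n) : permM F σ i j = if i = σ j then 1 else 0 := rfl

lemma permM_one : permM F (1 : Equiv.Perm (Fin n)) = 1 := by
  ext i j
  rw [permM_apply, Matrix.one_apply]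
  exact if_congr Iff.rfl rfl rfl

lemma permM_mul (σ τ : Equiv.Perm (Fin n)) : permM F (σ * τ) = permM F σ * permM F τ := by
  ext i j
  simp only [permM_apply, Matrix.mul_apply, Equiv.Perm.coe_mul, Function.comp_apply]
  rw [Finset.sum_eq_single (τ j)]
  · rw [if_pos (rfl : τ j = τ j), mul_one]
    exact if_congr Iff.rfl rfl rfl
  · intro b _ hb
    simp [hb]
  · simp

/-- permutation matrices as a homomorphism to `GL`. -/
def permGL (F : Type*) [Field F] (n : ℕ) : Equiv.Perm (Fin n) →* GL (Fin n) F :=
  MonoidHom.toHomUnits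
    { toFun := permM F
      map_one' := permM_one
      map_mul' := permM_mul }

lemma permGL_coe (σ : Equiv.Perm (Fin n)) : ((permGL F n σ : GL (Fin n) F) : Matrix (Fin n) (Fin n) F) = permM F σ := rfl

lemma bruhat_aux (g : Matrix (Fin n) (Fin n) F) (hg : g.det ≠ 0) (k : ℕ) (hk : k ≤ n) :
    ∃ b b' : Matrix (Fin n) (Fin n) F, b.BlockTriangular id ∧ b'.BlockTriangular id ∧ b.det ≠ 0 ∧ b'.det ≠ 0 ∧
      ∃ σ : Fin n → Fin n, ∀ j : Fin n, j.val < k →
        (b * g * b') (σ j) j ≠ 0 ∧ (∀ i, i ≠ σ j → (b * g * b') i j = 0) ∧ (∀ l, l ≠ j → (b * g * b') (σ j) l = 0) := by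
  classical
  induction k with
  | zero =>
    exact ⟨1, 1, Matrix.blockTriangular_one, Matrix.blockTriangular_one, by simp, by simp, id, fun j hj => absurd hj (by omega)⟩
  | succ k ih =>
    obtain ⟨b, b', hb, hb', hdb, hdb', σ, hσ⟩ := ih (by omega)
    set C := b * g * b' with hC
    have hCdet : C.det ≠ 0 := by
      rw [hC, Matrix.det_mul, Matrix.det_mul]
      exact mul_ne_zero (mul_ne_zero hdb hg) hdb'
    let k' : Fin n := ⟨k, by omega⟩
    have hne : (Finset.univ.filter (fun i => C i k' ≠ 0)).Nonempty := by
      by_contra hcon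
      rw [Finset.not_nonempty_iff_eq_empty, Finset.filter_eq_empty_iff] at hcon
      apply hCdet
      apply Matrix.det_eq_zero_of_column_eq_zero k'
      intro i
      simpa using hcon (Finset.mem_univ i)
    set i0 := (Finset.univ.filter (fun i => C i k' ≠ 0)).max' hne with hi0
    have hi0ne : C i0 k' ≠ 0 := by
      have := Finset.max'_mem _ hne
      rw [← hi0, Finset.mem_filter] at this
      exact this.2
    have hi0max : ∀ i, i0 < i → C i k' = 0 := by
      intro i hi
      by_contra hcon
      have := Finset.le_max' (Finset.univ.filter (fun i => C i k' ≠ 0)) i (Finset.mem_filter.2 ⟨Finset.mem_univ i, hcon⟩)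
      rw [← hi0] at this
      exact absurd hi (not_lt.2 this)
    let L : Matrix (Fin n) (Fin n) F := Matrix.of fun i j => if i = j then 1 else if j = i0 ∧ i < i0 then -(C i k' / C i0 k') else 0
    let R : Matrix (Fin n) (Fin n) F := Matrix.of fun j l => if j = l then 1 else if j = k' ∧ k' < l then -(C i0 l / C i0 k') else 0
    have hLt : L.BlockTriangular id := by
      intro i j hij
      simp only [id] at hij
      have h1 : i ≠ j := ne_of_gt hij
      have h2 : ¬ (j = i0 ∧ i < i0) := by
        rintro ⟨rfl, h⟩; exact absurd h (not_lt.2 hij.le)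
      simp only [L, Matrix.of_apply, if_neg h1, if_neg h2]
    have hRt : R.BlockTriangular id := by
      intro i j hij
      simp only [id] at hij
      have h1 : i ≠ j := ne_of_gt hij
      have h2 : ¬ (i = k' ∧ k' < j) := by
        rintro ⟨rfl, h⟩; exact absurd h (not_lt.2 hij.le)
      simp only [R, Matrix.of_apply, if_neg h1, if_neg h2]
    have hLdet : L.det = 1 := by
      rw [Matrix.det_of_upperTriangular hLt]
      apply Finset.prod_eq_one
      intro i _
      simp [L]
    have hRdet : R.det = 1 := by
      rw [Matrix.det_of_upperTriangular hRt]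
      apply Finset.prod_eq_one
      intro i _
      simp [R]
    have hLC : ∀ i l, (L * C) i l = C i l - if i < i0 then (C i k' / C i0 k') * C i0 l else 0 := by
      intro i l
      rw [Matrix.mul_apply]
      by_cases hi : i < i0
      · rw [if_pos hi]
        have hne' : i ≠ i0 := ne_of_lt hi
        rw [← Finset.sum_subset (Finset.subset_univ {i, i0})]
        · rw [Finset.sum_pair hne']
          simp only [L, Matrix.of_apply, if_pos, if_neg hne', hi, and_self]
          ring
        · intro x _ hx
          simp only [Finset.mem_insert, Finset.mem_singleton, not_or] at hx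
          have h1 : i ≠ x := fun h => hx.1 h.symm
          have h2 : ¬ (x = i0 ∧ i < i0) := fun h => hx.2 h.1
          simp only [L, Matrix.of_apply, if_neg h1, if_neg h2, zero_mul]
      · rw [if_neg hi, sub_zero, Finset.sum_eq_single i]
        · simp [L]
        · intro x _ hx
          have h1 : i ≠ x := fun h => hx h.symm
          have h2 : ¬ (x = i0 ∧ i < i0) := fun h => hi h.2
          simp only [L, Matrix.of_apply, if_neg h1, if_neg h2, zero_mul]
        · simp
    have hLCR : ∀ i l, (L * C * R) i l = (L * C) i l - if k' < l then (C i0 l / C i0 k') * (L * C) i k' else 0 := by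
      intro i l
      rw [Matrix.mul_apply]
      by_cases hl : k' < l
      · rw [if_pos hl]
        have hne' : k' ≠ l := ne_of_lt hl
        rw [← Finset.sum_subset (Finset.subset_univ {k', l})]
        · rw [Finset.sum_pair hne']
          simp only [R, Matrix.of_apply, if_pos, if_neg hne', hl, and_self]
          ring
        · intro x _ hx
          simp only [Finset.mem_insert, Finset.mem_singleton, not_or] at hx
          have h2 : ¬ (x = k' ∧ k' < l) := fun h => hx.1 h.1
          simp only [R, Matrix.of_apply, if_neg hx.2, if_neg h2, mul_zero]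
      · rw [if_neg hl, sub_zero, Finset.sum_eq_single l]
        · simp [R]
        · intro x _ hx
          have h2 : ¬ (x = k' ∧ k' < l) := fun h => hl h.2
          simp only [R, Matrix.of_apply, if_neg hx, if_neg h2, mul_zero]
        · simp
    have hLCk : ∀ i, i ≠ i0 → (L * C) i k' = 0 := by
      intro i hi
      rw [hLC]
      rcases lt_or_gt_of_ne hi with h | h
      · rw [if_pos h]; field_simp; ring
      · rw [if_neg (not_lt.2 h.le), hi0max i h]; ring
    have hLCk0 : (L * C) i0 k' = C i0 k' := by
      rw [hLC, if_neg (lt_irrefl _)]; ring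
    have hLCi0 : ∀ l, (L * C) i0 l = C i0 l := by
      intro l
      rw [hLC, if_neg (lt_irrefl _)]; ring
    have hσi0 : ∀ j : Fin n, j.val < k → σ j ≠ i0 := by
      intro j hj h
      have hjk : k' ≠ j := by
        intro hh; rw [← hh] at hj; exact absurd hj (lt_irrefl _)
      have := (hσ j hj).2.2 k' hjk
      rw [h] at this
      exact hi0ne this
    refine ⟨L * b, b' * R, hLt.mul hb, hb'.mul hRt, ?_, ?_, fun j => if j.val < k then σ j else i0, ?_⟩
    · rw [Matrix.det_mul, hLdet, one_mul]; exact hdb
    · rw [Matrix.det_mul, hRdet, mul_one]; exact hdb'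
    have hE : L * b * g * (b' * R) = L * C * R := by
      rw [hC]; simp only [Matrix.mul_assoc]
    rw [hE]
    intro j hj
    simp only
    by_cases hjk : j.val < k
    · rw [if_pos hjk]
      obtain ⟨h1, h2, h3⟩ := hσ j hjk
      have hji0 := hσi0 j hjk
      have hCi0j : C i0 j = 0 := h2 i0 (Ne.symm hji0)
      have hCσk : C (σ j) k' = 0 := h3 k' (by
        intro hh; rw [← hh] at hjk; exact absurd hjk (lt_irrefl _))
      have hnk : ¬ (k' < j) := by
        intro hh
        have : k < j.val := hh
        omega
      have hcol : ∀ i, (L * C * R) i j = C i j := by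
        intro i
        rw [hLCR, if_neg hnk, sub_zero, hLC, hCi0j]
        simp
      have hrow : ∀ l, (L * C * R) (σ j) l = C (σ j) l := by
        intro l
        rw [hLCR, hLCk _ hji0, hLC, hCσk]
        simp
      refine ⟨?_, ?_, ?_⟩
      · rw [hcol]; exact h1
      · intro i hi; rw [hcol]; exact h2 i hi
      · intro l hl; rw [hrow]; exact h3 l hl
    · rw [if_neg hjk]
      have hjk' : j = k' := by ext; simp only [k']; omega
      subst hjk'
      refine ⟨?_, ?_, ?_⟩
      · rw [hLCR, if_neg (lt_irrefl _), sub_zero, hLCk0]; exact hi0ne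
      · intro i hi
        rw [hLCR, if_neg (lt_irrefl _), sub_zero, hLCk i hi]
      · intro l hl
        rcases lt_or_gt_of_ne hl with h | h
        · rw [hLCR, if_neg (not_lt.2 h.le), sub_zero, hLCi0]
          have hlk : l.val < k := h
          exact (hσ l hlk).2.1 i0 (Ne.symm (hσi0 l hlk))
        · rw [hLCR, if_pos h, hLCi0, hLCk0]
          field_simp; ring

/-- Bruhat decomposition of the general linear group. -/
theorem exists_bruhat (g : GL (Fin n) F) :
    ∃ b b' : GL (Fin n) F, (b : Matrix (Fin n) (Fin n) F).BlockTriangular id ∧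
      (b' : Matrix (Fin n) (Fin n) F).BlockTriangular id ∧ ∃ σ : Equiv.Perm (Fin n), g = b * permGL F n σ * b' := by
  have hgdet : (g : Matrix (Fin n) (Fin n) F).det ≠ 0 := by
    have := g.det.ne_zero
    simpa using this
  obtain ⟨b, b', hb, hb', hdb, hdb', σ, hσ⟩ := bruhat_aux (g : Matrix (Fin n) (Fin n) F) hgdet n le_rfl
  have hσ' := fun j => hσ j j.2
  have hinj : Function.Injective σ := by
    intro j l hjl
    by_contra hne
    have h1 := (hσ' j).2.2 l (Ne.symm hne)
    rw [hjl] at h1
    exact (hσ' l).1 h1
  let τ : Equiv.Perm (Fin n) := Equiv.ofBijective σ (Finite.injective_iff_bijective.1 hinj)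
  have hτ : ∀ j, τ j = σ j := fun j => rfl
  set C := b * (g : Matrix (Fin n) (Fin n) F) * b' with hC
  have hCeq : C = permM F τ * Matrix.diagonal (fun j => C (σ j) j) := by
    ext i j
    rw [Matrix.mul_diagonal, permM_apply, hτ]
    by_cases h : i = σ j
    · rw [if_pos h, one_mul, h]
    · rw [if_neg h, zero_mul]
      exact (hσ' j).2.1 i h
  let bu : GL (Fin n) F := Matrix.GeneralLinearGroup.mkOfDetNeZero b hdb
  let bu' : GL (Fin n) F := Matrix.GeneralLinearGroup.mkOfDetNeZero b' hdb'
  have hD : (Matrix.diagonal (fun j => C (σ j) j)).det ≠ 0 := by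
    rw [Matrix.det_diagonal, Finset.prod_ne_zero_iff]
    intro j _
    exact (hσ' j).1
  let D : GL (Fin n) F := Matrix.GeneralLinearGroup.mkOfDetNeZero _ hD
  have hval : bu * g * bu' = permGL F n τ * D := by
    apply Units.ext
    exact hCeq
  refine ⟨bu⁻¹, D * bu'⁻¹, ?_, ?_, τ, ?_⟩
  · have : Invertible (bu : Matrix (Fin n) (Fin n) F) := bu.invertible
    rw [Matrix.coe_units_inv]
    exact Matrix.blockTriangular_inv_of_blockTriangular hb
  · have : Invertible (bu' : Matrix (Fin n) (Fin n) F) := bu'.invertible
    rw [Units.val_mul, Matrix.coe_units_inv]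
    exact (Matrix.blockTriangular_diagonal _).mul (Matrix.blockTriangular_inv_of_blockTriangular hb')
  · rw [mul_assoc, ← mul_assoc (permGL F n τ), ← hval]
    group

end Cfsg.Agent.H40
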